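import Mathlib
import Cfsg.Agent.Eq.Def_Local
import Cfsg.Agent.Constrained.PSolvable
import Cfsg.Agent.Solvable.MinNormal
import Cfsg.Agent.Solvable.SchurZassenhaus

/-!
`p`-solvable groups in which every maximal subgroup is `p`-nilpotent or of prime index have a
normal series with factors of type `p'`, `p`, `p'`, `p`.
-/

set_option autoImplicit false

namespace CfsgLib.PLengthTwo

open Cfsg
open scoped Pointwise

universe u

variable {G : Type u} [Group G]

/-- A normal series with factors `p'`, `p`, `p'`, `p`. -/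
def TwoStep (p : ℕ) (G : Type u) [Group G] : Prop :=
  ∃ A B C : Subgroup G, A.Normal ∧ B.Normal ∧ C.Normal ∧ A ≤ B ∧ B ≤ C ∧ ¬ p ∣ Nat.card A ∧
    (∃ k : ℕ, A.relIndex B = p ^ k) ∧ ¬ p ∣ B.relIndex C ∧ ∃ k : ℕ, C.index = p ^ k

/-- Every maximal subgroup has a normal `p`-complement or has prime index. -/
def MaxHyp (p : ℕ) (G : Type u) [Group G] : Prop :=
  ∀ M : Subgroup G, IsCoatom M →
    (∃ K : Subgroup ↥M, K.Normal ∧ ¬ p ∣ Nat.card K ∧ ∃ k : ℕ, K.index = p ^ k) ∨ M.index.Prime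

theorem MaxHyp.quotient [Finite G] {p : ℕ} [Fact p.Prime] (h : MaxHyp p G) (N : Subgroup G)
    [N.Normal] : MaxHyp p (G ⧸ N) := by
  intro M hM
  have hq := QuotientGroup.mk'_surjective N
  rcases h _ (Subgroup.isCoatom_comap_of_surjective hq hM) with ⟨K, hK, hKp, k, hk⟩ | hp
  · left
    let φ : M.comap (QuotientGroup.mk' N) →* M := (QuotientGroup.mk' N).subgroupComap M
    have hφ : Function.Surjective φ := by
      rintro ⟨y, hy⟩
      obtain ⟨x, rfl⟩ := hq y
      exact ⟨⟨x, hy⟩, rfl⟩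
    refine ⟨K.map φ, hK.map φ hφ,
      fun hd => hKp (hd.trans (Constrained.card_map_dvd_card φ K)), ?_⟩
    obtain ⟨j, -, hj⟩ := (Nat.dvd_prime_pow Fact.out).1 (hk ▸ K.index_map_dvd hφ)
    exact ⟨j, hj⟩
  · right
    rwa [Subgroup.index_comap_of_surjective _ hq] at hp

theorem relIndex_inf_dvd [Finite G] {A₁ A₂ B₁ B₂ : Subgroup G} [A₁.Normal] [A₂.Normal]
    (h₁ : A₁ ≤ B₁) (h₂ : A₂ ≤ B₂) :
    (A₁ ⊓ A₂).relIndex (B₁ ⊓ B₂) ∣ A₁.relIndex B₁ * A₂.relIndex B₂ := by
  have hle1 : A₁ ⊓ A₂ ≤ A₁ ⊓ (B₁ ⊓ B₂) :=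
    le_inf inf_le_left (inf_le_inf h₁ h₂)
  rw [← Subgroup.relIndex_mul_relIndex (A₁ ⊓ A₂) (A₁ ⊓ (B₁ ⊓ B₂)) (B₁ ⊓ B₂) hle1 inf_le_right,
    Subgroup.inf_relIndex_right, mul_comm]
  refine mul_dvd_mul (Constrained.relIndex_dvd_relIndex inf_le_left) ?_
  have e : A₁ ⊓ A₂ = A₂ ⊓ (A₁ ⊓ (B₁ ⊓ B₂)) := by
    apply le_antisymm
    · exact le_inf inf_le_right hle1
    · exact le_inf (inf_le_right.trans inf_le_left) inf_le_left
  rw [e, Subgroup.inf_relIndex_right]
  exact Constrained.relIndex_dvd_relIndex ((inf_le_right.trans inf_le_right))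

theorem exists_pow_of_dvd {p n : ℕ} [Fact p.Prime] {a b : ℕ} (h : n ∣ p ^ a * p ^ b) :
    ∃ k, n = p ^ k := by
  rw [← pow_add] at h
  obtain ⟨k, -, hk⟩ := (Nat.dvd_prime_pow Fact.out).1 h
  exact ⟨k, hk⟩

theorem relIndex_comap_mk {N : Subgroup G} [N.Normal] (A B : Subgroup (G ⧸ N)) :
    (A.comap (QuotientGroup.mk' N)).relIndex (B.comap (QuotientGroup.mk' N)) = A.relIndex B := by
  rw [Subgroup.relIndex_comap,
    Subgroup.map_comap_eq_self_of_surjective (QuotientGroup.mk'_surjective N)]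

theorem le_comap_mk {N : Subgroup G} [N.Normal] (A : Subgroup (G ⧸ N)) :
    N ≤ A.comap (QuotientGroup.mk' N) := fun x hx => by
  rw [Subgroup.mem_comap, QuotientGroup.mk'_apply, (QuotientGroup.eq_one_iff x).2 hx]
  exact A.one_mem

theorem relIndex_self_comap {N : Subgroup G} [N.Normal] (A : Subgroup (G ⧸ N)) :
    N.relIndex (A.comap (QuotientGroup.mk' N)) = Nat.card A := by
  rw [Constrained.relIndex_eq_card_map,
    Subgroup.map_comap_eq_self_of_surjective (QuotientGroup.mk'_surjective N)]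

/-- The property is closed under subdirect products. -/
theorem TwoStep.of_inf_eq_bot [Finite G] {p : ℕ} [Fact p.Prime] {N L : Subgroup G} [N.Normal]
    [L.Normal] (hNL : N ⊓ L = ⊥) (hN : TwoStep p (G ⧸ N)) (hL : TwoStep p (G ⧸ L)) :
    TwoStep p G := by
  obtain ⟨A₁, B₁, C₁, hA₁, hB₁, hC₁, hAB₁, hBC₁, a1, ⟨b1, hb1⟩, c1, ⟨d1, hd1⟩⟩ := hN
  obtain ⟨A₂, B₂, C₂, hA₂, hB₂, hC₂, hAB₂, hBC₂, a2, ⟨b2, hb2⟩, c2, ⟨d2, hd2⟩⟩ := hL
  let q1 := QuotientGroup.mk' N
  let q2 := QuotientGroup.mk' L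
  haveI := hA₁.comap q1
  haveI := hB₁.comap q1
  haveI := hC₁.comap q1
  haveI := hA₂.comap q2
  haveI := hB₂.comap q2
  haveI := hC₂.comap q2
  have hp : p.Prime := Fact.out
  refine ⟨A₁.comap q1 ⊓ A₂.comap q2, B₁.comap q1 ⊓ B₂.comap q2, C₁.comap q1 ⊓ C₂.comap q2,
    inferInstance, inferInstance, inferInstance,
    inf_le_inf (Subgroup.comap_mono hAB₁) (Subgroup.comap_mono hAB₂),
    inf_le_inf (Subgroup.comap_mono hBC₁) (Subgroup.comap_mono hBC₂), ?_, ?_, ?_, ?_⟩
  · intro hd
    have h := relIndex_inf_dvd (le_comap_mk A₁) (le_comap_mk A₂)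
    rw [hNL, Subgroup.relIndex_bot_left, relIndex_self_comap, relIndex_self_comap] at h
    exact (hp.dvd_mul.1 (hd.trans h)).elim a1 a2
  · have h := relIndex_inf_dvd (Subgroup.comap_mono (f := q1) hAB₁) (Subgroup.comap_mono (f := q2) hAB₂)
    rw [relIndex_comap_mk, relIndex_comap_mk, hb1, hb2] at h
    exact exists_pow_of_dvd h
  · intro hd
    have h := relIndex_inf_dvd (Subgroup.comap_mono (f := q1) hBC₁) (Subgroup.comap_mono (f := q2) hBC₂)
    rw [relIndex_comap_mk, relIndex_comap_mk] at h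
    exact (hp.dvd_mul.1 (hd.trans h)).elim c1 c2
  · have h := relIndex_inf_dvd (le_top : C₁.comap q1 ≤ ⊤) (le_top : C₂.comap q2 ≤ ⊤)
    rw [inf_top_eq, Subgroup.relIndex_top_right, Subgroup.relIndex_top_right,
      Subgroup.relIndex_top_right, Subgroup.index_comap_of_surjective _ (QuotientGroup.mk'_surjective N),
      Subgroup.index_comap_of_surjective _ (QuotientGroup.mk'_surjective L), hd1, hd2] at h
    exact exists_pow_of_dvd h

/-- A normal abelian `p`-subgroup lying in all maximal subgroups: a normal series of the quotient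
lifts. -/
theorem TwoStep.of_le_maximal [Finite G] {p : ℕ} [Fact p.Prime] {N : Subgroup G} [N.Normal]
    (hNp : IsPGroup p N) (hNs : Group.IsSolvable N) (hΦ : ∀ M : Subgroup G, IsCoatom M → N ≤ M)
    (hO : pPrimeCore p G = ⊥) (h : TwoStep p (G ⧸ N)) : TwoStep p G := by
  obtain ⟨A, B, C, hA, hB, hC, hAB, hBC, a, ⟨b, hb⟩, c, ⟨d, hd⟩⟩ := h
  let q := QuotientGroup.mk' N
  have hp : p.Prime := Fact.out
  have hsurj := QuotientGroup.mk'_surjective N
  haveI := hA.comap q
  set A' := A.comap q with hA'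
  obtain ⟨e, he⟩ := IsPGroup.iff_card.1 hNp
  have hcopA : (Nat.card N).Coprime (Nat.card A) :=
    he ▸ Nat.Coprime.pow_left e ((hp.coprime_iff_not_dvd).2 a)
  have hcardN' : Nat.card (N.subgroupOf A') = Nat.card N :=
    Nat.card_congr (Subgroup.subgroupOfEquivOfLe (le_comap_mk A)).toEquiv
  have hidxN' : (N.subgroupOf A').index = Nat.card A := relIndex_self_comap A
  obtain ⟨K, hK⟩ := Subgroup.exists_right_complement'_of_coprime (N := N.subgroupOf A')
    (by rw [hcardN', hidxN']; exact hcopA)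
  set K' := K.map A'.subtype with hK'
  have hK'A : K' ≤ A' := Subgroup.map_subtype_le _
  have hKN : K' ⊔ N = A' := by
    apply le_antisymm (sup_le hK'A (le_comap_mk A))
    intro x hx
    obtain ⟨n, hn, k, hk, hnk⟩ := Subgroup.mem_sup_of_normal_left.1
      (hK.sup_eq_top.symm ▸ Subgroup.mem_top (⟨x, hx⟩ : A'))
    rw [show x = (n : G) * k from (congrArg Subtype.val hnk).symm]
    exact mul_mem (Subgroup.mem_sup_right hn) (Subgroup.mem_sup_left ⟨k, hk, rfl⟩)
  have hcardK : Nat.card K' = Nat.card A := by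
    rw [hK', Constrained.card_map_of_injective _ A'.subtype_injective, ← hidxN', hK.symm.index_eq_card]
  have hgen : Subgroup.normalizer (K' : Set G) ⊔ N = ⊤ := by
    rw [eq_top_iff]
    intro g _
    have hK2 : MulAut.conj g • K' ⊔ N = K' ⊔ N := by
      have e1 : MulAut.conj g • K' ⊔ MulAut.conj g • N = MulAut.conj g • A' := by
        rw [← Subgroup.smul_sup, hKN]
      rw [Subgroup.Normal.conj_smul_eq_self g N, Subgroup.Normal.conj_smul_eq_self g A'] at e1
      rw [e1, hKN]
    obtain ⟨n, hn, hn'⟩ := CfsgLib.Solvable.exists_conj_of_sup_eq N (MulAut.conj g • K') K' hK2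
      (by rw [CfsgLib.Solvable.card_conj_smul, hcardK]; exact hcopA.symm)
      (by rw [hcardK]; exact hcopA.symm) (Or.inl hNs)
    rw [smul_smul, ← map_mul] at hn'
    have hmem : n * g ∈ Subgroup.normalizer (K' : Set G) := by
      rw [Subgroup.mem_normalizer_iff]
      intro x
      constructor
      · intro hx
        exact hn' ▸ ⟨x, hx, rfl⟩
      · intro hx
        rw [← hn'] at hx
        obtain ⟨y, hy, hyx⟩ := hx
        simp only [MulDistribMulAction.toMonoidEnd_apply, MulDistribMulAction.toMonoidHom_apply,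
          MulAut.smul_def, MulAut.conj_apply, mul_left_inj, mul_right_inj] at hyx
        exact hyx ▸ hy
    rw [show g = n⁻¹ * (n * g) by group]
    exact mul_mem (Subgroup.mem_sup_right (inv_mem hn)) (Subgroup.mem_sup_left hmem)
  have hnorm : Subgroup.normalizer (K' : Set G) = ⊤ := by
    refine (eq_top_or_exists_le_coatom _).resolve_right ?_
    rintro ⟨M, hM, hle⟩
    exact hM.1 (eq_top_iff.2 (hgen ▸ sup_le hle (hΦ M hM)))
  have hK'n : K'.Normal := Subgroup.normalizer_eq_top_iff.1 hnorm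
  have hKbot : K' = ⊥ := by
    rw [eq_bot_iff, ← hO]
    exact Constrained.le_pPrimeCore_of_not_dvd hK'n (hcardK ▸ a)
  have hA1 : Nat.card A = 1 := by rw [← hcardK, hKbot, Subgroup.card_bot]
  refine ⟨⊥, B.comap q, C.comap q, inferInstance, hB.comap q, hC.comap q, bot_le,
    Subgroup.comap_mono hBC, ?_, ⟨e + b, ?_⟩, ?_, d, ?_⟩
  · rw [Subgroup.card_bot]; exact hp.not_dvd_one
  · have e1 := Subgroup.relIndex_mul_relIndex ⊥ A' (B.comap q) bot_le (Subgroup.comap_mono hAB)
    rw [relIndex_comap_mk, hb, Subgroup.relIndex_bot_left] at e1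
    rw [← e1, pow_add]
    congr 1
    rw [← hKN, hKbot, bot_sup_eq, he]
  · rw [relIndex_comap_mk]; exact c
  · rw [Subgroup.index_comap_of_surjective _ hsurj, hd]

/-- A normal abelian subgroup `N` with a complement `M`, both of the types occurring. -/
theorem TwoStep.of_complement [Finite G] {p : ℕ} [Fact p.Prime] {N M : Subgroup G} [N.Normal]
    (hNp : IsPGroup p N) (hNM : N ⊓ M = ⊥) (hsup : N ⊔ M = ⊤)
    (hcent : ∀ L : Subgroup G, L.Normal → L ≠ ⊥ → N ≤ L)
    (h : (∃ K : Subgroup ↥M, K.Normal ∧ ¬ p ∣ Nat.card K ∧ ∃ k : ℕ, K.index = p ^ k) ∨ M.index.Prime)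
    (hcomm : IsMulCommutative N) : TwoStep p G := by
  have hp : p.Prime := Fact.out
  have hc : M.IsComplement' N :=
    Subgroup.isComplement'_of_disjoint_and_mul_eq_univ (disjoint_iff.2 (by rw [inf_comm, hNM]))
      (by rw [← Subgroup.mul_normal, sup_comm, hsup, Subgroup.coe_top])
  have hidxM : M.index = Nat.card N := hc.symm.index_eq_card
  have hidxN : N.index = Nat.card M := hc.index_eq_card
  obtain ⟨e, he⟩ := IsPGroup.iff_card.1 hNp
  rcases h with ⟨K, hK, hKp, k, hk⟩ | hr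
  · let q := QuotientGroup.mk' N
    have hqM : Function.Surjective (q.comp M.subtype) := by
      intro y
      obtain ⟨x, rfl⟩ := QuotientGroup.mk'_surjective N y
      obtain ⟨n, hn, m, hm, rfl⟩ := Subgroup.mem_sup_of_normal_left.1 (hsup.symm ▸ Subgroup.mem_top x)
      refine ⟨⟨m, hm⟩, ?_⟩
      change q m = q (n * m)
      rw [map_mul, show q n = 1 from (QuotientGroup.eq_one_iff n).2 hn, one_mul]
    haveI := hK.map _ hqM
    refine ⟨⊥, N, (K.map (q.comp M.subtype)).comap q, inferInstance, inferInstance, inferInstance,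
      bot_le, le_comap_mk _, ?_, ⟨e, ?_⟩, ?_, ?_⟩
    · rw [Subgroup.card_bot]; exact hp.not_dvd_one
    · rw [Subgroup.relIndex_bot_left, he]
    · rw [relIndex_self_comap]
      exact fun hd => hKp (hd.trans (Constrained.card_map_dvd_card _ K))
    · rw [Subgroup.index_comap_of_surjective _ (QuotientGroup.mk'_surjective N)]
      obtain ⟨j, -, hj⟩ := (Nat.dvd_prime_pow hp).1 (hk ▸ K.index_map_dvd hqM)
      exact ⟨j, hj⟩
  · have hpp : (p ^ e).Prime := he ▸ hidxM ▸ hr
    have he1 : e = 1 := Nat.Prime.eq_one_of_pow hpp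
    rw [he1, pow_one] at he
    haveI : IsCyclic N := isCyclic_of_prime_card he
    let ψ : M →* MulAut N := (MulAut.conjNormal).comp M.subtype
    let D : Subgroup G := M ⊓ Subgroup.centralizer (N : Set G)
    have hDn : D.Normal := by
      refine ⟨fun x hx g => ?_⟩
      obtain ⟨n, hn, m, hm, rfl⟩ := Subgroup.mem_sup_of_normal_left.1 (hsup.symm ▸ Subgroup.mem_top g)
      have hx2 : m * x * m⁻¹ ∈ D :=
        ⟨M.mul_mem (M.mul_mem hm hx.1) (M.inv_mem hm),
          (inferInstance : (Subgroup.centralizer (N : Set G)).Normal).conj_mem x hx.2 m⟩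
      have : n * m * x * (n * m)⁻¹ = m * x * m⁻¹ := by
        rw [show n * m * x * (n * m)⁻¹ = n * (m * x * m⁻¹) * n⁻¹ by group,
          Subgroup.mem_centralizer_iff.1 hx2.2 n hn, mul_inv_cancel_right]
      rw [this]; exact hx2
    have hDbot : D = ⊥ := by
      by_contra hne
      have hND := hcent D hDn hne
      have : N = ⊥ := eq_bot_iff.2 (hNM ▸ le_inf le_rfl (hND.trans inf_le_left))
      rw [this, Subgroup.card_bot] at he
      exact hp.ne_one he.symm
    have hψ : Function.Injective ψ := by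
      rw [injective_iff_map_eq_one]
      intro m hm
      have hmD : (m : G) ∈ D := by
        refine ⟨m.2, Subgroup.mem_centralizer_iff.2 fun n hn => ?_⟩
        have := congrArg Subtype.val (DFunLike.congr_fun hm ⟨n, hn⟩)
        simp only [ψ, MonoidHom.comp_apply, Subgroup.subtype_apply, MulAut.conjNormal_apply,
          MulAut.one_apply] at this
        exact (mul_inv_eq_iff_eq_mul.1 this).symm
      rw [hDbot] at hmD
      exact Subtype.ext (Subgroup.mem_bot.1 hmD)
    have hMp : ¬ p ∣ Nat.card M := by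
      intro hd
      have h1 := hd.trans (Subgroup.card_dvd_of_injective ψ hψ)
      rw [IsCyclic.card_mulAut, he, Nat.totient_prime hp] at h1
      have := Nat.le_of_dvd (by have := hp.two_le; omega) h1
      have := hp.two_le; omega
    refine ⟨⊥, N, ⊤, inferInstance, inferInstance, inferInstance, bot_le, le_top, ?_, ⟨1, ?_⟩, ?_, 0, ?_⟩
    · rw [Subgroup.card_bot]; exact hp.not_dvd_one
    · rw [Subgroup.relIndex_bot_left, he, pow_one]
    · rw [Subgroup.relIndex_top_right, hidxN]; exact hMp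
    · rw [Subgroup.index_top, pow_zero]

/-- The main theorem. -/
theorem twoStep_of_maxHyp (p : ℕ) [Fact p.Prime] (G : Type u) [Group G] [Finite G]
    (hG : IsPSolvable p G) (hmax : MaxHyp p G) : TwoStep p G := by
  suffices key : ∀ (n : ℕ) (G : Type u) [Group G] [Finite G], Nat.card G = n →
      IsPSolvable p G → MaxHyp p G → TwoStep p G from key _ G rfl hG hmax
  intro n
  induction n using Nat.strong_induction_on with
  | _ n ih =>
    intro G _ _ hn hG hmax
    have hp : p.Prime := Fact.out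
    rcases subsingleton_or_nontrivial G with hs | hnt
    · refine ⟨⊥, ⊥, ⊤, inferInstance, inferInstance, inferInstance, le_rfl, le_top, ?_, ⟨0, ?_⟩, ?_, 0, ?_⟩
      · rw [Subgroup.card_bot]; exact hp.not_dvd_one
      · rw [Subgroup.relIndex_self, pow_zero]
      · rw [Subgroup.relIndex_top_right, Subgroup.index_bot, Nat.card_unique]; exact hp.not_dvd_one
      · rw [Subgroup.index_top, pow_zero]
    have ihQ : ∀ (L : Subgroup G) [L.Normal], L ≠ ⊥ → TwoStep p (G ⧸ L) := fun L _ hL =>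
      ih _ (hn ▸ CfsgLib.Solvable.card_quotient_lt L hL) (G ⧸ L) rfl
        (Constrained.IsPSolvable.quotient hG L) (hmax.quotient L)
    by_cases hO : pPrimeCore p G = ⊥
    · have hcore : pCore p G ≠ ⊥ :=
        (Constrained.IsPSolvable.core_ne_bot hG).resolve_right (fun h => h hO)
      obtain ⟨N, hNle, hNn, hN1, hNmin⟩ := CfsgLib.Solvable.exists_minimal_normal_le (pCore p G) hcore
      have hNp : IsPGroup p N := Constrained.isPGroup_pCore.to_le hNle
      haveI : Group.IsNilpotent N := hNp.isNilpotent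
      obtain ⟨hNab, -⟩ := CfsgLib.Solvable.minimal_normal_elementary N inferInstance hN1 hNmin
      by_cases hu : ∃ L : Subgroup G, L.Normal ∧ L ≠ ⊥ ∧ N ⊓ L = ⊥
      · obtain ⟨L, hLn, hL1, hNL⟩ := hu
        exact TwoStep.of_inf_eq_bot hNL (ihQ N hN1) (ihQ L hL1)
      push Not at hu
      have hcent : ∀ L : Subgroup G, L.Normal → L ≠ ⊥ → N ≤ L := fun L hL hL1 => by
        haveI := hL
        have := (hNmin (N ⊓ L) inferInstance inf_le_left).resolve_left (hu L hL hL1)
        exact this ▸ inf_le_right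
      by_cases hΦ : ∀ M : Subgroup G, IsCoatom M → N ≤ M
      · exact TwoStep.of_le_maximal hNp inferInstance hΦ hO (ihQ N hN1)
      push Not at hΦ
      obtain ⟨M, hM, hNM⟩ := hΦ
      have hsup : N ⊔ M = ⊤ := hM.2 _ (lt_of_le_of_ne le_sup_right fun h => hNM (h ▸ le_sup_left))
      have hinf : (N ⊓ M).Normal := by
        refine ⟨fun x hx g => ?_⟩
        obtain ⟨n, hn, m, hm, rfl⟩ :=
          Subgroup.mem_sup_of_normal_left.1 (hsup.symm ▸ Subgroup.mem_top g)
        have h2 : m * x * m⁻¹ ∈ N ⊓ M :=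
          ⟨hNn.conj_mem x hx.1 m, M.mul_mem (M.mul_mem hm hx.2) (M.inv_mem hm)⟩
        have hcomm : n * (m * x * m⁻¹) = (m * x * m⁻¹) * n :=
          congrArg Subtype.val (hNab.is_comm.comm (⟨n, hn⟩ : N) ⟨_, h2.1⟩)
        rw [show n * m * x * (n * m)⁻¹ = n * (m * x * m⁻¹) * n⁻¹ by group, hcomm,
          mul_inv_cancel_right]
        exact h2
      have hNM0 : N ⊓ M = ⊥ :=
        (hNmin _ hinf inf_le_left).resolve_right fun h => hNM (h ▸ inf_le_right)
      exact TwoStep.of_complement hNp hNM0 hsup hcent (hmax M hM) hNab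
    · obtain ⟨A, B, C, hA, hB, hC, hAB, hBC, a, b, c, d⟩ := ihQ (pPrimeCore p G) hO
      refine ⟨_, _, _, hA.comap (QuotientGroup.mk' _), hB.comap (QuotientGroup.mk' _),
        hC.comap (QuotientGroup.mk' _), Subgroup.comap_mono hAB, Subgroup.comap_mono hBC,
        Constrained.not_dvd_card_comap_mk (Constrained.pPrimeCore_not_dvd) a, ?_, ?_, ?_⟩
      · rwa [relIndex_comap_mk]
      · rwa [relIndex_comap_mk]
      · rwa [Subgroup.index_comap_of_surjective _ (QuotientGroup.mk'_surjective _)]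

end CfsgLib.PLengthTwo
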